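import Cfsg.Agent.H46.L40Defs

/-! Project L40, chapter T (the case `o = true` is impossible): data and statements. -/

set_option autoImplicit false
set_option linter.unusedSectionVars false

noncomputable section

namespace Cfsg.Agent.H63.LT

open Subgroup Cfsg.Agent.H40.L3 Cfsg.Agent.H46.L40

universe u

/-- `γ = t δ w z^s`, inducing the inverse transpose on `L` -/
def Gs (s : Bool) : M true := M.T * M.D * M.W * bp M.Z s

/-- the situation modulo the odd core of `C(t, γ, z)`; `ρ`, `κ` are the images of `r0`, `k0` -/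
structure TQ (G : Type u) [Group G] (s : Bool) where
  ι : M true →* G
  inj : Function.Injective ι
  ρ : G
  κ : G
  ρt : ρ * ι .T * ρ⁻¹ = ι .T
  ρg : ρ * ι (Gs s) * ρ⁻¹ = ι (Gs s)
  ρz : ρ * ι .Z * ρ⁻¹ = ι .A
  ρa : ρ * ι .A * ρ⁻¹ = ι (.A * .Z)
  ρ3 : ρ * ρ * ρ = 1
  σρ : ι (.W * .A) * ρ * (ι (.W * .A))⁻¹ = ρ⁻¹
  κt : κ * ι .T * κ⁻¹ = ι .T
  κd : κ * ι .D * κ⁻¹ = ι .D
  κw : κ * ι .W * κ⁻¹ = ι .Q
  κq : κ * ι .Q * κ⁻¹ = ι (.W * .Q * .Z)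
  κ3 : κ * κ * κ = 1
  cB : ∀ x : G, x * ι .T * x⁻¹ = ι .T → x * ι (Gs s) * x⁻¹ = ι (Gs s) → x * ι .Z * x⁻¹ = ι .Z →
    ∃ m : M true, m.b = false ∧ m.q = false ∧ x = ι m

/-- CB: the centralizer of `⟨t, γ, z⟩` -/
def CbS : Prop := ∀ (G : Type u) [Group G] [Finite G] (f : Fr2 G true) (s : Bool),
  (∀ x, f.D.ι (Gs s) * f.φ x * (f.D.ι (Gs s))⁻¹ = f.φ (tr x)) →
  ∃ O : Subgroup G, Odd (Nat.card O) ∧ (∀ o ∈ O, ∀ x, o * f.φ x = f.φ x * o) ∧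
    (∀ x : G, x ∈ O ↔ (Odd (orderOf x) ∧ x * f.D.ι .T = f.D.ι .T * x ∧
      x * f.D.ι (Gs s) = f.D.ι (Gs s) * x ∧ x * f.D.ι .Z = f.D.ι .Z * x)) ∧
    ∀ x : G, x * f.D.ι .T = f.D.ι .T * x → x * f.D.ι (Gs s) = f.D.ι (Gs s) * x →
      x * f.D.ι .Z = f.D.ι .Z * x → ∃ o ∈ O, ∃ m : M true, m.b = false ∧ m.q = false ∧ x = o * f.D.ι m

/-- QT: passing to `N(O) / O` -/
def QtS : Prop := CbS.{u} → ∀ (G : Type u) [Group G] [Finite G] (_ : Fr2 G true),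
  ∃ (H : Type u) (_ : Group H) (s : Bool), Nonempty (TQ H s)

/-- KL: the clean situation is contradictory -/
def KlS : Prop := ∀ (G : Type u) [Group G] (s : Bool) (_ : TQ G s), False

theorem chT_of (cb : CbS.{u}) (qt : QtS.{u}) (kl : KlS.{u}) : ChT.{u} := by
  intro G _ _ f
  obtain ⟨H, _, s, ⟨q⟩⟩ := qt cb G f
  exact (kl H s q).elim

end Cfsg.Agent.H63.LT
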