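import Cfsg.Agent.H63.LtDefs

/-! Project L40, chapter T: the clean situation is contradictory. -/

set_option autoImplicit false
set_option linter.unusedSectionVars false

noncomputable section

namespace Cfsg.Agent.H63.LT

open Subgroup Cfsg.Agent.H40.L3 Cfsg.Agent.H46.L40 Cfsg.Agent.H40.L3.M

universe u

variable {G : Type u} [Group G] {ι : M true →* G}

def e (k : Nat) : M true := M.of true k

/-- `g` conjugates `ι m` to `ι n` -/
def Ac (ι : M true →* G) (g : G) (m n : M true) : Prop := g * ι m * g⁻¹ = ι n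

namespace Ac
variable {g h : G} {m n m' n' k : M true}

theorem one : Ac ι g 1 1 := by simp [Ac]
theorem mul (a : Ac ι g m n) (b : Ac ι g m' n') : Ac ι g (m * m') (n * n') := by
  unfold Ac at *
  rw [map_mul, map_mul, ← a, ← b]; group
theorem iv (a : Ac ι g m n) : Ac ι g m⁻¹ n⁻¹ := by
  unfold Ac at *
  rw [map_inv, map_inv, ← a]; group
theorem comp (a : Ac ι g m n) (b : Ac ι h n k) : Ac ι (h * g) m k := by
  unfold Ac at *
  rw [← b, ← a]; group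
theorem inv (a : Ac ι g m n) : Ac ι g⁻¹ n m := by
  unfold Ac at *
  rw [← a]; group
theorem cg (a : Ac ι g m n) (h : m = m' ∧ n = n') : Ac ι g m' n' := h.1 ▸ h.2 ▸ a
theorem of' (h : k * m * k⁻¹ = n) : Ac ι (ι k) m n := by
  unfold Ac
  rw [← h, map_mul, map_mul, map_inv]
theorem bp' (c : Bool) (a : c = true → Ac ι g m n) : Ac ι g (bp m c) (bp n c) := by
  cases c
  · exact one
  · exact a rfl
theorem uq (hi : Function.Injective ι) (a : Ac ι g m n) (b : Ac ι g m k) : n = k :=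
  hi (a.symm.trans b)
theorem back (hi : Function.Injective ι) (a : Ac ι (ι k) m n) : k * m * k⁻¹ = n :=
  uq hi (of' rfl) a
end Ac

def L6 (t b d w q m : M true) : M true :=
  bp t m.t * bp b m.b * bp d m.d * bp w m.w * bp q m.q * bp Z m.z

theorem nf6 : ∀ m : M true, m.a = false → L6 T B D W Q m = m := by decide +kernel

theorem act6 {g : G} {t b d w q m : M true} (ht : Ac ι g T t) (hb : m.b = true → Ac ι g B b)
    (hd : Ac ι g D d) (hw : Ac ι g W w) (hq : Ac ι g Q q) (hz : Ac ι g Z Z) (ha : m.a = false) :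
    Ac ι g m (L6 t b d w q m) :=
  ((((((Ac.bp' _ fun _ => ht).mul (Ac.bp' _ hb)).mul (Ac.bp' _ fun _ => hd)).mul
    (Ac.bp' _ fun _ => hw)).mul (Ac.bp' _ fun _ => hq)).mul (Ac.bp' _ fun _ => hz)).cg
      ⟨nf6 m ha, rfl⟩

/-- the action on `F` -/
def AF (ι : M true →* G) (g : G) (t b d w q : M true) : Prop :=
  Ac ι g T t ∧ Ac ι g B b ∧ Ac ι g D d ∧ Ac ι g W w ∧ Ac ι g Q q ∧ Ac ι g Z Z

namespace AF
variable {g h : G} {t b d w q t' b' d' w' q' t'' b'' d'' w'' q'' : M true}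

theorem ap (p : AF ι g t b d w q) {m n : M true} (h : m.a = false ∧ L6 t b d w q m = n) :
    Ac ι g m n :=
  h.2 ▸ act6 p.1 (fun _ => p.2.1) p.2.2.1 p.2.2.2.1 p.2.2.2.2.1 p.2.2.2.2.2 h.1

theorem comp (p : AF ι g t b d w q) (r : AF ι h t' b' d' w' q')
    (H : (t.a = false ∧ L6 t' b' d' w' q' t = t'') ∧ (b.a = false ∧ L6 t' b' d' w' q' b = b'') ∧
      (d.a = false ∧ L6 t' b' d' w' q' d = d'') ∧ (w.a = false ∧ L6 t' b' d' w' q' w = w'') ∧
      (q.a = false ∧ L6 t' b' d' w' q' q = q'')) : AF ι (h * g) t'' b'' d'' w'' q'' :=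
  ⟨p.1.comp (r.ap H.1), p.2.1.comp (r.ap H.2.1), p.2.2.1.comp (r.ap H.2.2.1),
    p.2.2.2.1.comp (r.ap H.2.2.2.1), p.2.2.2.2.1.comp (r.ap H.2.2.2.2),
    p.2.2.2.2.2.comp r.2.2.2.2.2⟩

theorem inv (p : AF ι g t b d w q)
    (H : (t'.a = false ∧ L6 t b d w q t' = T) ∧ (b'.a = false ∧ L6 t b d w q b' = B) ∧
      (d'.a = false ∧ L6 t b d w q d' = D) ∧ (w'.a = false ∧ L6 t b d w q w' = W) ∧
      (q'.a = false ∧ L6 t b d w q q' = Q)) : AF ι g⁻¹ t' b' d' w' q' :=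
  ⟨(p.ap H.1).inv, (p.ap H.2.1).inv, (p.ap H.2.2.1).inv, (p.ap H.2.2.2.1).inv,
    (p.ap H.2.2.2.2).inv, p.2.2.2.2.2.inv⟩
end AF

theorem case14 {κ δ : G} (k : AF ι κ (e 1) (e 2) (e 4) (e 16) (e 88)) (p : AF ι δ (e 12) (e 81) (e 4) (e 69) (e 14)) :
    ∃ g : G, AF ι g (e 65) (e 7) (e 4) (e 72) (e 24) := by
  have pi : AF ι δ⁻¹ (e 12) (e 17) (e 4) (e 69) (e 78) := p.inv (by decide +kernel)
  have k1 : AF ι _ (e 20) (e 89) (e 4) (e 69) (e 86) := pi.comp k (by decide +kernel)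
  have s : AF ι _ (e 74) (e 7) (e 4) (e 8) (e 27) := k1.comp p (by decide +kernel)
  have c0 : AF ι _ (e 74) (e 7) (e 4) (e 27) (e 19) := k.comp s (by decide +kernel)
  have c1 : AF ι _ (e 82) (e 7) (e 4) (e 75) (e 91) := c0.comp k (by decide +kernel)
  have c2 : AF ι _ (e 26) (e 7) (e 4) (e 83) (e 11) := c1.comp k (by decide +kernel)
  have c3 : AF ι _ (e 84) (e 9) (e 4) (e 86) (e 5) := c2.comp s (by decide +kernel)
  have c4 : AF ι _ (e 95) (e 2) (e 4) (e 24) (e 78) := c3.comp s (by decide +kernel)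
  have c5 : AF ι _ (e 15) (e 2) (e 4) (e 72) (e 86) := c4.comp k (by decide +kernel)
  have c6 : AF ι _ (e 65) (e 7) (e 4) (e 72) (e 24) := c5.comp s (by decide +kernel)
  exact ⟨_, c6⟩

theorem case78 {κ δ : G} (k : AF ι κ (e 1) (e 2) (e 4) (e 16) (e 88)) (p : AF ι δ (e 12) (e 17) (e 4) (e 69) (e 78)) :
    ∃ g : G, AF ι g (e 65) (e 7) (e 4) (e 72) (e 24) := by
  have pi : AF ι δ⁻¹ (e 12) (e 81) (e 4) (e 69) (e 14) := p.inv (by decide +kernel)
  have k1 : AF ι _ (e 20) (e 25) (e 4) (e 69) (e 22) := pi.comp k (by decide +kernel)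
  have s : AF ι _ (e 10) (e 7) (e 4) (e 8) (e 91) := k1.comp p (by decide +kernel)
  have c0 : AF ι _ (e 10) (e 7) (e 4) (e 91) (e 83) := k.comp s (by decide +kernel)
  have c1 : AF ι _ (e 18) (e 7) (e 4) (e 11) (e 27) := c0.comp k (by decide +kernel)
  have c2 : AF ι _ (e 90) (e 7) (e 4) (e 19) (e 75) := c1.comp k (by decide +kernel)
  have c3 : AF ι _ (e 84) (e 73) (e 4) (e 22) (e 5) := c2.comp s (by decide +kernel)
  have c4 : AF ι _ (e 31) (e 2) (e 4) (e 24) (e 14) := c3.comp s (by decide +kernel)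
  have c5 : AF ι _ (e 79) (e 2) (e 4) (e 72) (e 22) := c4.comp k (by decide +kernel)
  have c6 : AF ι _ (e 65) (e 7) (e 4) (e 72) (e 24) := c5.comp s (by decide +kernel)
  exact ⟨_, c6⟩

theorem case11 {κ δ : G} (k : AF ι κ (e 1) (e 2) (e 4) (e 16) (e 88)) (p : AF ι δ (e 76) (e 25) (e 4) (e 5) (e 11)) :
    ∃ g : G, AF ι g (e 65) (e 7) (e 4) (e 72) (e 24) := by
  have pi : AF ι δ⁻¹ (e 76) (e 89) (e 4) (e 5) (e 75) := p.inv (by decide +kernel)
  have k1 : AF ι _ (e 84) (e 9) (e 4) (e 5) (e 83) := pi.comp k (by decide +kernel)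
  have s : AF ι _ (e 79) (e 9) (e 4) (e 8) (e 30) := k1.comp p (by decide +kernel)
  have c0 : AF ι _ (e 79) (e 9) (e 4) (e 30) (e 22) := k.comp s (by decide +kernel)
  have c1 : AF ι _ (e 87) (e 17) (e 4) (e 78) (e 94) := c0.comp k (by decide +kernel)
  have c2 : AF ι _ (e 31) (e 89) (e 4) (e 86) (e 14) := c1.comp k (by decide +kernel)
  have c3 : AF ι _ (e 20) (e 89) (e 4) (e 83) (e 69) := c2.comp s (by decide +kernel)
  have c4 : AF ι _ (e 90) (e 89) (e 4) (e 24) (e 75) := c3.comp s (by decide +kernel)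
  have c5 : AF ι _ (e 10) (e 9) (e 4) (e 72) (e 83) := c4.comp k (by decide +kernel)
  have c6 : AF ι _ (e 65) (e 7) (e 4) (e 72) (e 24) := c5.comp s (by decide +kernel)
  exact ⟨_, c6⟩

theorem case75 {κ δ : G} (k : AF ι κ (e 1) (e 2) (e 4) (e 16) (e 88)) (p : AF ι δ (e 76) (e 89) (e 4) (e 5) (e 75)) :
    ∃ g : G, AF ι g (e 65) (e 7) (e 4) (e 72) (e 24) := by
  have pi : AF ι δ⁻¹ (e 76) (e 25) (e 4) (e 5) (e 11) := p.inv (by decide +kernel)
  have k1 : AF ι _ (e 84) (e 73) (e 4) (e 5) (e 19) := pi.comp k (by decide +kernel)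
  have s : AF ι _ (e 15) (e 73) (e 4) (e 8) (e 94) := k1.comp p (by decide +kernel)
  have c0 : AF ι _ (e 15) (e 73) (e 4) (e 94) (e 86) := k.comp s (by decide +kernel)
  have c1 : AF ι _ (e 23) (e 81) (e 4) (e 14) (e 30) := c0.comp k (by decide +kernel)
  have c2 : AF ι _ (e 95) (e 25) (e 4) (e 22) (e 78) := c1.comp k (by decide +kernel)
  have c3 : AF ι _ (e 20) (e 25) (e 4) (e 19) (e 69) := c2.comp s (by decide +kernel)
  have c4 : AF ι _ (e 26) (e 25) (e 4) (e 24) (e 11) := c3.comp s (by decide +kernel)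
  have c5 : AF ι _ (e 74) (e 73) (e 4) (e 72) (e 19) := c4.comp k (by decide +kernel)
  have c6 : AF ι _ (e 65) (e 7) (e 4) (e 72) (e 24) := c5.comp s (by decide +kernel)
  exact ⟨_, c6⟩


/-- the action on `A = ⟨t, γ, z, a⟩` -/
def L4 (s : Bool) (t g z a m : M true) : M true :=
  bp t (m.t ^^ m.d) * bp g m.d * bp a m.a *
    bp z ((bp T (m.t ^^ m.d) * bp (Gs s) m.d * bp A m.a)⁻¹ * m).z

def inA (m : M true) : Bool := !m.b && !m.q && (m.d == m.w)

theorem nf4 (s : Bool) : ∀ m : M true, inA m = true → L4 s T (Gs s) Z A m = m := by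
  cases s <;> decide +kernel

def A4 (ι : M true →* G) (s : Bool) (g : G) (t c z a : M true) : Prop :=
  Ac ι g T t ∧ Ac ι g (Gs s) c ∧ Ac ι g Z z ∧ Ac ι g A a

namespace A4
variable {s : Bool} {g h : G} {t c z a t' c' z' a' t'' c'' z'' a'' : M true}

theorem ap (p : A4 ι s g t c z a) {m n : M true} (h : inA m = true ∧ L4 s t c z a m = n) :
    Ac ι g m n :=
  ((((Ac.bp' _ fun _ => p.1).mul (Ac.bp' _ fun _ => p.2.1)).mul (Ac.bp' _ fun _ => p.2.2.2)).mul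
    (Ac.bp' _ fun _ => p.2.2.1)).cg ⟨nf4 s m h.1, h.2⟩

theorem comp (p : A4 ι s g t c z a) (r : A4 ι s h t' c' z' a')
    (H : (inA t = true ∧ L4 s t' c' z' a' t = t'') ∧ (inA c = true ∧ L4 s t' c' z' a' c = c'') ∧
      (inA z = true ∧ L4 s t' c' z' a' z = z'') ∧ (inA a = true ∧ L4 s t' c' z' a' a = a'')) :
    A4 ι s (h * g) t'' c'' z'' a'' :=
  ⟨p.1.comp (r.ap H.1), p.2.1.comp (r.ap H.2.1), p.2.2.1.comp (r.ap H.2.2.1),
    p.2.2.2.comp (r.ap H.2.2.2)⟩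
end A4

def Hs (s : Bool) : M true := B * Q * bp W (!s)

variable {s : Bool}

theorem kap (q : TQ G s) : AF q.ι q.κ (e 1) (e 2) (e 4) (e 16) (e 88) := by
  have kt : Ac q.ι q.κ T T := q.κt
  have kd : Ac q.ι q.κ D D := q.κd
  have kw : Ac q.ι q.κ W Q := q.κw
  have kq : Ac q.ι q.κ Q (W * Q * Z) := q.κq
  have kz : Ac q.ι q.κ Z Z := (kw.mul kw).cg (by decide +kernel)
  have k0 : ∀ {m n : M true}, (m.a = false ∧ m.b = false) ∧ L6 T B D Q (W * Q * Z) m = n →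
      Ac q.ι q.κ m n := fun {m n} h =>
    h.2 ▸ act6 kt (fun c => by rw [h.1.2] at c; cases c) kd kw kq kz h.1.1
  have ki : q.κ⁻¹ = q.κ * q.κ := by
    rw [eq_comm, ← mul_eq_one_iff_eq_inv, q.κ3]
  -- the action of `κ β κ⁻¹ β⁻¹`
  have key : ∀ {m n n' : M true}, Ac q.ι q.κ n (B⁻¹ * m * B⁻¹⁻¹) → B * n * B⁻¹ = n' →
      Ac q.ι q.κ n' m → Ac q.ι (q.κ * q.ι B * q.κ⁻¹ * q.ι B⁻¹) m m := fun h1 h2 h3 => by
    have := (((Ac.of' rfl).comp h1.inv).comp (Ac.of' h2)).comp h3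
    simpa only [mul_assoc] using this
  have x1 := key (m := T) (n := T * Z) (n' := T) (k0 (by decide +kernel)) (by decide +kernel) kt
  have x2 := key (m := Z) (n := Z) (n' := Z) (k0 (by decide +kernel)) (by decide +kernel) kz
  have x3 := key (m := D) (n := D) (n' := D) (k0 (by decide +kernel)) (by decide +kernel) kd
  have x4 := key (m := Q) (n := W) (n' := W) (k0 (by decide +kernel)) (by decide +kernel) kw
  have x5 := key (m := W) (n := W * Q * Z) (n' := W * Q * Z) (k0 (by decide +kernel))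
    (by decide +kernel) (k0 (by decide +kernel))
  have x6 : Ac q.ι (q.κ * q.ι B * q.κ⁻¹ * q.ι B⁻¹) (Gs s) (Gs s) :=
    ((x1.mul x3).mul x5).mul (Ac.bp' _ fun _ => x2)
  obtain ⟨m, mb, mq, hm⟩ := q.cB _ x1 x6 x2
  rw [hm] at x3 x4
  have y3 := x3.back q.inj
  have y4 := x4.back q.inj
  have kb : Ac q.ι q.κ B (m * B) := by
    unfold Ac
    rw [map_mul, ← hm, map_inv]; group
  have aux : ∀ m : M true, m.b = false → m.q = false → m * D * m⁻¹ = D → m * Q * m⁻¹ = Q →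
      ((m.a = false ∧ m.b = false) ∧ L6 T B D Q (W * Q * Z) m = m) ∧
        (m * (m * (m * B)) = B → m = 1) := by decide +kernel
  obtain ⟨u1, u2⟩ := aux m mb mq y3 y4
  have km := k0 u1
  have k3 := (kb.comp (km.mul kb)).comp (km.mul (km.mul kb))
  rw [← mul_assoc, q.κ3] at k3
  have : m = 1 := u2 (Ac.uq q.inj k3 (by simp [Ac]))
  subst this
  exact ⟨kt.cg (by decide +kernel), kb.cg (by decide +kernel), kd.cg (by decide +kernel),
    kw.cg (by decide +kernel), kq.cg (by decide +kernel), kz⟩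

theorem fin (q : TQ G s) {g : G} (p : AF q.ι g (e 65) (e 7) (e 4) (e 72) (e 24)) : False := by
  have pa : ∀ {m n k : M true}, (m.a = false ∧ L6 (e 65) (e 7) (e 4) (e 72) (e 24) m = n) ∧
      ((B * Q)⁻¹ * A) * n * ((B * Q)⁻¹ * A)⁻¹ = k → Ac q.ι (q.ι ((B * Q)⁻¹ * A) * g) m k :=
    fun h => (p.ap h.1).comp (Ac.of' h.2)
  have x1 := pa (m := T) (n := e 65) (k := T) (by decide +kernel)
  have x2 := pa (m := Gs s) (n := Gs s) (k := Gs s) (by cases s <;> decide +kernel)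
  have x3 := pa (m := Z) (n := Z) (k := Z) (by decide +kernel)
  have x4 := pa (m := D) (n := D) (k := D * Z) (by decide +kernel)
  have x5 := pa (m := Q) (n := e 24) (k := Q) (by decide +kernel)
  obtain ⟨m, mb, mq, hm⟩ := q.cB _ x1 x2 x3
  rw [hm] at x4 x5
  have aux : ∀ m : M true, m.b = false → m.q = false → m * D * m⁻¹ = D * Z → m * Q * m⁻¹ = Q →
      False := by decide +kernel
  exact aux m mb mq (x4.back q.inj) (x5.back q.inj)

theorem del (q : TQ G s) : ∃ (δ : G) (ν : Bool), A4 q.ι s δ (T * Gs s) (Gs s) Z A ∧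
    Ac q.ι δ (Hs s) (Hs s) ∧ Ac q.ι δ (W * A) (bp (Gs s) ν * (W * A)) := by
  set ι := q.ι
  set ρ := q.ρ
  have r : A4 ι s ρ T (Gs s) A (A * Z) := ⟨q.ρt, q.ρg, q.ρz, q.ρa⟩
  have r' : A4 ι s ρ⁻¹ T (Gs s) (A * Z) Z :=
    ⟨r.1.inv, r.2.1.inv, (r.ap (by cases s <;> decide +kernel)).inv, r.2.2.1.inv⟩
  have ri : ρ⁻¹ = ρ * ρ := by rw [eq_comm, ← mul_eq_one_iff_eq_inv, q.ρ3]
  set h := ι (Hs s) with hh
  have a0 : A4 ι s h (T * Z) (Gs s) Z (A * Gs s) :=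
    ⟨Ac.of' (by cases s <;> decide +kernel), Ac.of' (by cases s <;> decide +kernel),
      Ac.of' (by cases s <;> decide +kernel), Ac.of' (by cases s <;> decide +kernel)⟩
  have h0 : h * h = 1 := by
    rw [hh, ← map_mul, show Hs s * Hs s = 1 by cases s <;> decide +kernel, map_one]
  obtain ⟨h1, e1⟩ : ∃ h1, h1 = ρ * (h * ρ⁻¹) := ⟨_, rfl⟩
  obtain ⟨h2, e2⟩ : ∃ h2, h2 = ρ⁻¹ * (h * ρ) := ⟨_, rfl⟩
  have a1 : A4 ι s h1 (T * A) (Gs s) (Z * Gs s) A := e1 ▸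
    (r'.comp a0 (t'' := T * Z) (c'' := Gs s) (z'' := A * Z * Gs s) (a'' := Z)
      (by cases s <;> decide +kernel)).comp r (by cases s <;> decide +kernel)
  have a2 : A4 ι s h2 (T * A * Z) (Gs s) (Z * Gs s) (A * Gs s) := e2 ▸
    (r.comp a0 (t'' := T * Z) (c'' := Gs s) (z'' := A * Gs s) (a'' := A * Z * Gs s)
      (by cases s <;> decide +kernel)).comp r' (by cases s <;> decide +kernel)
  have h11 : h1 * h1 = 1 := by
    rw [e1, show ρ * (h * ρ⁻¹) * (ρ * (h * ρ⁻¹)) = ρ * (h * h) * ρ⁻¹ by group, h0]; group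
  have h22 : h2 * h2 = 1 := by
    rw [e2, show ρ⁻¹ * (h * ρ) * (ρ⁻¹ * (h * ρ)) = ρ⁻¹ * (h * h) * ρ by group, h0]; group
  have i0 : h⁻¹ = h := inv_eq_of_mul_eq_one_right h0
  have i1 : h1⁻¹ = h1 := inv_eq_of_mul_eq_one_right h11
  have i2 : h2⁻¹ = h2 := inv_eq_of_mul_eq_one_right h22
  have b1 : A4 ι s (h * h1) (T * Z * A * Gs s) (Gs s) (Z * Gs s) (A * Gs s) :=
    a1.comp a0 (by cases s <;> decide +kernel)
  have b2 : A4 ι s (h * h1 * (h * h1)) T (Gs s) Z A := b1.comp b1 (by cases s <;> decide +kernel)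
  obtain ⟨m, mb, mq, hm⟩ := q.cB _ b2.1 b2.2.1 b2.2.2.1
  change _ = ι m at hm
  have y1 : m * A * m⁻¹ = A := Ac.back q.inj (hm ▸ b2.2.2.2)
  have y2 : Hs s * m * (Hs s)⁻¹ = m⁻¹ := Ac.back q.inj (by
    unfold Ac
    rw [map_inv, ← hm, ← hh]
    simp only [mul_inv_rev, i0, i1]
    rw [show h * (h * h1 * (h * h1)) * h = (h * h) * h1 * h * h1 * h by group, h0]; group)
  have y3 : Ac ι h1 m m⁻¹ := by
    unfold Ac
    rw [map_inv, ← hm]
    simp only [mul_inv_rev, i0, i1]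
    rw [show h1 * (h * h1 * (h * h1)) * h1 = h1 * h * h1 * h * (h1 * h1) by group, h11]; group
  have aux : ∀ m : M true, m.b = false → m.q = false → m * A * m⁻¹ = A →
      Hs s * m * (Hs s)⁻¹ = m⁻¹ → inA m = true ∧
        (L4 s (T * A) (Gs s) (Z * Gs s) A m = m⁻¹ → ∃ ν, m = bp (Gs s) ν) := by
    cases s <;> decide +kernel
  obtain ⟨u1, u2⟩ := aux m mb mq y1 y2
  obtain ⟨ν, rfl⟩ := u2 (Ac.uq q.inj (a1.ap ⟨u1, rfl⟩) y3)
  set g := ι (bp (Gs s) ν) with hg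
  have gg : g * g = 1 := by
    rw [hg, ← map_mul, show bp (Gs s) ν * bp (Gs s) ν = 1 by
      cases s <;> cases ν <;> decide +kernel, map_one]
  have cg : ∀ {x : G}, Ac ι x (Gs s) (Gs s) → x * g = g * x := fun c => by
    have : Ac ι _ _ _ := Ac.bp' ν fun _ => c
    unfold Ac at this
    rw [← hg] at this
    exact mul_inv_eq_iff_eq_mul.1 this
  have g0 := cg a0.2.1
  have g1 := cg a1.2.1
  have g2 := cg a2.2.1
  have gr := cg r.2.1
  have c01 : h * h1 = g * (h1 * h) := by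
    rw [← hm, show h * h1 * (h * h1) * (h1 * h) = h * h1 * h * (h1 * h1) * h by group, h11,
      mul_one, mul_assoc, h0, mul_one]
  have j1 : ρ * h * ρ⁻¹ = h1 := by rw [e1, mul_assoc]
  have j2 : ρ * h1 * ρ⁻¹ = h2 := by
    rw [e1, e2, show ρ * (ρ * (h * ρ⁻¹)) * ρ⁻¹ = (ρ * ρ) * h * (ρ * ρ)⁻¹ by group, ← ri]; group
  have j3 : ρ * h2 * ρ⁻¹ = h := by rw [e2]; group
  have j4 : ρ * g * ρ⁻¹ = g := by rw [gr]; group
  have cj : ∀ {x y x' y' : G}, x * y = g * (y * x) → ρ * x * ρ⁻¹ = x' → ρ * y * ρ⁻¹ = y' →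
      x' * y' = g * (y' * x') := fun {x y x' y'} c c1 c2 => by
    rw [← c1, ← c2, show ρ * x * ρ⁻¹ * (ρ * y * ρ⁻¹) = ρ * (x * y) * ρ⁻¹ by group, c]
    conv_rhs => rw [← j4]
    group
  have c12 := cj c01 j1 j2
  have c20 := cj c12 j2 j3
  have c02 : h * h2 = g * (h2 * h) := by rw [c20, ← mul_assoc, gg, one_mul]
  have c21 : h2 * h1 = g * (h1 * h2) := by rw [c12, ← mul_assoc, gg, one_mul]
  have d1 : A4 ι s (h * h1 * h2) (T * Gs s) (Gs s) Z A :=
    a2.comp b1 (by cases s <;> decide +kernel)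
  refine ⟨h * h1 * h2, ν, d1, ?_, ?_⟩
  · unfold Ac
    rw [← hh, mul_inv_eq_iff_eq_mul]
    calc h * h1 * h2 * h = h * (h1 * (g * g) * h2 * h) := by rw [gg]; group
      _ = h * (g * (h1 * (g * (h2 * h)))) := by
          rw [show h1 * (g * g) = (h1 * g) * g by group, g1]; group
      _ = h * (g * (h1 * h) * h2) := by rw [← c02]; group
      _ = _ := by rw [← c01]
  · set σ := ι (W * A) with hσ
    have s0 : σ * h * σ⁻¹ = h * ι (Z * Gs s) := by
      have : W * A * Hs s * (W * A)⁻¹ = Hs s * (Z * Gs s) := by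
        clear * -
        cases s <;> decide +kernel
      rw [hh, ← map_mul ι (Hs s)]; exact Ac.of' (ι := ι) this
    have sr : σ * ρ * σ⁻¹ = ρ⁻¹ := q.σρ
    have sr' : σ * ρ⁻¹ * σ⁻¹ = ρ := by
      rw [show σ * ρ⁻¹ * σ⁻¹ = (σ * ρ * σ⁻¹)⁻¹ by group, sr, inv_inv]
    have v1 : ρ⁻¹ * ι (Z * Gs s) * ρ⁻¹⁻¹ = ι (A * Z * Gs s) :=
      r'.ap (by cases s <;> decide +kernel)
    have v2 : ρ * ι (Z * Gs s) * ρ⁻¹ = ι (A * Gs s) := r.ap (by cases s <;> decide +kernel)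
    have s1 : σ * h1 * σ⁻¹ = h2 * ι (A * Z * Gs s) := by
      rw [e1, e2, ← v1, show σ * (ρ * (h * ρ⁻¹)) * σ⁻¹ =
        (σ * ρ * σ⁻¹) * (σ * h * σ⁻¹) * (σ * ρ⁻¹ * σ⁻¹) by group, sr, s0, sr']; group
    have s2 : σ * h2 * σ⁻¹ = h1 * ι (A * Gs s) := by
      rw [e1, e2, ← v2, show σ * (ρ⁻¹ * (h * ρ)) * σ⁻¹ =
        (σ * ρ⁻¹ * σ⁻¹) * (σ * h * σ⁻¹) * (σ * ρ * σ⁻¹) by group, sr, s0, sr']; group
    have w1 : h2 * ι Z * h2⁻¹ = ι (Z * Gs s) := a2.2.2.1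
    have w2 : h1 * ι (A * Gs s) * h1⁻¹ = ι (A * Gs s) := a1.ap (by cases s <;> decide +kernel)
    have w3 : ι Z * ι (A * Z * Gs s) = ι (A * Gs s) := by
      rw [← map_mul]; congr 1; cases s <;> decide +kernel
    have w4 : ι (A * Gs s) * ι (A * Gs s) = 1 := by
      rw [← map_mul, show A * Gs s * (A * Gs s) = 1 by cases s <;> decide +kernel, map_one]
    have s3 : σ * (h * h1 * h2) * σ⁻¹ = g * (h * h1 * h2) := by
      rw [show σ * (h * h1 * h2) * σ⁻¹ = (σ * h * σ⁻¹) * (σ * h1 * σ⁻¹) * (σ * h2 * σ⁻¹) by group,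
        s0, s1, s2, ← w1]
      calc _ = h * h2 * (ι Z * ι (A * Z * Gs s)) * (h1 * ι (A * Gs s)) := by group
        _ = h * h2 * (h1 * ι (A * Gs s) * h1⁻¹) * (h1 * ι (A * Gs s)) := by rw [w3, w2]
        _ = h * (h2 * h1) * (ι (A * Gs s) * ι (A * Gs s)) := by group
        _ = _ := by rw [w4, c21, mul_one, ← mul_assoc, g0]; group
    unfold Ac
    rw [map_mul ι (bp (Gs s) ν), ← hg, ← hσ]
    have : σ * (h * h1 * h2) = g * (h * h1 * h2) * σ := by rw [← s3]; group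
    rw [mul_inv_eq_iff_eq_mul, mul_assoc g, this, ← mul_assoc, ← mul_assoc, gg, one_mul]

theorem kl : KlS.{u} := by
  intro G _ s q
  obtain ⟨δ, ν, d, dh, dσ⟩ := del q
  have dw : Ac q.ι δ W (bp (Gs s) ν * W) :=
    (dσ.mul d.2.2.2).cg (by cases s <;> cases ν <;> decide +kernel)
  have key : ∀ {m n n' : M true}, Ac q.ι δ n (B⁻¹ * m * B⁻¹⁻¹) → Q * n * Q⁻¹ = n' →
      Ac q.ι δ n' m → Ac q.ι (δ * q.ι Q * δ⁻¹ * q.ι B⁻¹) m m := fun h1 h2 h3 => by
    have := (((Ac.of' rfl).comp h1.inv).comp (Ac.of' h2)).comp h3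
    simpa only [mul_assoc] using this
  have x1 := key (m := T) (n := T * Gs s * Z) (n' := T * Gs s)
    (d.ap (by cases s <;> decide +kernel)) (by cases s <;> decide +kernel)
    (d.ap (by cases s <;> decide +kernel))
  have x2 := key (m := Gs s) (n := Gs s * Z) (n' := Gs s)
    (d.ap (by cases s <;> decide +kernel)) (by cases s <;> decide +kernel) d.2.1
  have x3 := key (m := Z) (n := Z) (n' := Z)
    (d.ap (by cases s <;> decide +kernel)) (by decide +kernel) d.2.2.1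
  obtain ⟨m, mb, mq, hm⟩ := q.cB _ x1 x2 x3
  have dq : Ac q.ι δ Q (m * B) := by
    unfold Ac
    rw [map_mul, ← hm, map_inv]; group
  have db : Ac q.ι δ B (Hs s * (m * B * bp (bp (Gs s) ν * W) (!s))⁻¹) :=
    (dh.mul (dq.mul (Ac.bp' (!s) fun _ => dw)).iv).cg ⟨by cases s <;> decide +kernel, rfl⟩
  have dd : Ac q.ι δ D (T * Gs s * Gs s * bp Z s * (bp (Gs s) ν * W)⁻¹) :=
    (((d.1.mul d.2.1).mul (Ac.bp' s fun _ => d.2.2.1)).mul dw.iv).cg
      ⟨by cases s <;> decide +kernel, rfl⟩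
  have r1 := Ac.uq q.inj ((dq.mul dq).cg ⟨by decide +kernel, rfl⟩) d.2.2.1
  have r2 := Ac.uq q.inj ((db.mul db).cg ⟨by decide +kernel, rfl⟩) d.2.2.1
  have r3 := Ac.uq q.inj ((dq.mul dd).cg ⟨by decide +kernel, rfl⟩) (dd.mul dq)
  have r4 := Ac.uq q.inj ((d.2.2.2.mul dq).cg ⟨by decide +kernel, rfl⟩) ((dw.mul dq).mul d.2.2.2)
  have p : AF q.ι δ _ _ _ _ _ := ⟨d.1, db, dd, dw, dq, d.2.2.1⟩
  have k := kap q
  have aux : ∀ m : M true, (m.b = false ∧ m.q = false ∧ m * B * (m * B) = Z ∧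
      Hs s * (m * B * bp (bp (Gs s) ν * W) (!s))⁻¹ *
        (Hs s * (m * B * bp (bp (Gs s) ν * W) (!s))⁻¹) = Z ∧
      m * B * (T * Gs s * Gs s * bp Z s * (bp (Gs s) ν * W)⁻¹) =
        T * Gs s * Gs s * bp Z s * (bp (Gs s) ν * W)⁻¹ * (m * B) ∧
      A * (m * B) = bp (Gs s) ν * W * (m * B) * A) →
      ν = true ∧ (m * B = (bif s then e 11 else e 14) ∨ m * B = (bif s then e 75 else e 78)) := by
    clear * -
    set_option synthInstance.maxSize 1000 in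
    cases s <;> cases ν <;> decide +kernel
  obtain ⟨rfl, c⟩ := aux m ⟨mb, mq, r1, r2, r3, r4⟩
  have cv : ∀ {t b d w r t' b' d' w' r' : M true}, AF q.ι δ t b d w r →
      t = t' ∧ b = b' ∧ d = d' ∧ w = w' ∧ r = r' → AF q.ι δ t' b' d' w' r' := by
    rintro t b d w r _ _ _ _ _ h ⟨rfl, rfl, rfl, rfl, rfl⟩
    exact h
  rcases c with c | c <;> rw [c] at p <;> cases s
  · obtain ⟨g, hg⟩ := case14 k (cv p (by decide +kernel))
    exact fin q hg
  · obtain ⟨g, hg⟩ := case11 k (cv p (by decide +kernel))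
    exact fin q hg
  · obtain ⟨g, hg⟩ := case78 k (cv p (by decide +kernel))
    exact fin q hg
  · obtain ⟨g, hg⟩ := case75 k (cv p (by decide +kernel))
    exact fin q hg

end Cfsg.Agent.H63.LT
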