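import Cfsg.Agent.H63.LtKl
import Cfsg.Agent.H62.LtCB
import Cfsg.Agent.H64.LtQt

/-! Project L40, chapter T. -/

set_option autoImplicit false

namespace Cfsg.Agent.H63.LT

universe u

theorem noT (G : Type u) [Group G] [Finite G] (f : H46.L40.Fr2 G true) : False := by
  obtain ⟨H, _, s, ⟨q⟩⟩ := H64.LtQt.qt H62.LtCB.cb G f
  exact kl H s q

theorem chT : H46.L40.ChT.{u} := chT_of H62.LtCB.cb H64.LtQt.qt kl

end Cfsg.Agent.H63.LT
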