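import Cfsg.Prelude.Def_Blocks
import Cfsg.Prelude.Def_Local
import Cfsg.Prelude.Def_Solvable

/-!
# S3019 (pairs of Sylow subgroups generate p-solvable groups): definitions and pieces.
Notes: stubs/notes/h63_ps.md
-/

set_option autoImplicit false
open Cfsg

namespace Cfsg.Agent.H63.PS

universe u

section defs
variable {G : Type u} [Group G]

/-- `O_{p'}(H)` as a subgroup of `G`. -/
abbrev OO (p : ℕ) (H : Subgroup G) : Subgroup G := (pPrimeCore p ↥H).map H.subtype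

/-- the centralizer of an element -/
abbrev CC (c : G) : Subgroup G := Subgroup.centralizer ({c} : Set G)

/-- the minimal counterexample -/
structure Hyp (p : ℕ) [Fact p.Prime] (G : Type u) [Group G] : Prop where
  simple : IsSimpleGroup G
  ncomm : ∃ a b : G, a * b ≠ b * a
  proper : ∀ H : Subgroup G, H ≠ ⊤ → IsPSolvable p ↥H
  pair : ∀ S₁ S₂ : Sylow p G, IsPSolvable p ↥((S₁ : Subgroup G) ⊔ (S₂ : Subgroup G))

/-- `d` is a central element of the subgroup `S` -/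
def Cen (S : Subgroup G) (d : G) : Prop := d ∈ S ∧ ∀ y ∈ S, d * y = y * d

/-- `A = ⟨z^G ∩ P⟩` -/
def AA (P : Subgroup G) (z : G) : Subgroup G := Subgroup.closure {x | x ∈ P ∧ IsConj z x}

/-- number of `G`-conjugates of `b` in `A` -/
noncomputable def kk (A : Subgroup G) (b : G) : ℕ := Nat.card {x : G // x ∈ A ∧ IsConj b x}

/-- `|C(b) : O_{p'}(C(b))|` -/
noncomputable def io (p : ℕ) (b : G) : ℕ := (pPrimeCore p ↥(CC b)).index

/-- first local facts -/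
structure Loc1 (p : ℕ) [Fact p.Prime] (P : Sylow p G) (z : G) : Prop where
  pair : ∀ (S₁ S₂ : Sylow p G) (d₁ d₂ : G), Cen S₁ d₁ → Cen S₂ d₂ →
    d₁⁻¹ * d₂⁻¹ * d₁ * d₂ ∈ OO p ((S₁ : Subgroup G) ⊔ (S₂ : Subgroup G))
  cen : ∀ d : G, IsConj z d → ∀ T : Subgroup G, IsPGroup p T → (∀ y ∈ T, d * y = y * d) →
    ∃ S : Sylow p G, T ≤ S ∧ Cen S d
  comm : ∀ a ∈ AA P z, ∀ b ∈ AA P z, a * b = b * a
  wc : ∀ S : Sylow p G, AA P z ≤ S → ∀ x ∈ (S : Subgroup G), IsConj z x → x ∈ AA P z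
  nrm : ∀ S : Sylow p G, AA P z ≤ S → (S : Subgroup G) ≤ Subgroup.normalizer (AA P z : Set G)
  fus : ∀ x ∈ AA P z, IsConj z x → ∃ m ∈ Subgroup.normalizer (AA P z : Set G), m * z * m⁻¹ = x

/-- `A O_{p'}(H)` is normal in every `p`-solvable overgroup `H` of `A` -/
def Nrm (p : ℕ) (A : Subgroup G) (z : G) : Prop :=
  ∀ H : Subgroup G, IsPSolvable p ↥H → A ≤ H →
    (∀ d ∈ H, IsConj z d → ∃ a ∈ A, ∃ o ∈ OO p H, d = a * o) ∧
    (∀ h ∈ H, ∃ o ∈ OO p H, o⁻¹ * h ∈ Subgroup.normalizer (A : Set G))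

/-- every conjugate of `A` is `κ A κ⁻¹` with `κ` in a good `p'`-subgroup -/
def Kap (p : ℕ) (A : Subgroup G) : Prop :=
  ∀ g : G, ∃ κ : G, κ⁻¹ * g ∈ Subgroup.normalizer (A : Set G) ∧
    (∀ a ∈ A, ¬ p ∣ orderOf (a * (κ * a⁻¹ * κ⁻¹))) ∧
    ∀ a ∈ A, ∀ b ∈ A, a * b ≠ 1 →
      ∃ s ∈ OO p (CC (a * b)), IsConj (a * b * s) (a * (κ * b * κ⁻¹))

/-- the numerical local facts -/
def Num (p : ℕ) (A : Subgroup G) (z : G) : Prop :=
  (∀ b ∈ A, b ≠ 1 → kk A z * io p z ≤ kk A b * io p b) ∧ Nat.card A ≤ io p z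

/-- everything the character part needs -/
structure Loc (p : ℕ) (A : Subgroup G) (z : G) : Prop where
  pg : IsPGroup p A
  comm : ∀ a ∈ A, ∀ b ∈ A, a * b = b * a
  mem : z ∈ A
  ord : orderOf z = p
  gen : A ≤ Subgroup.closure {x | x ∈ A ∧ IsConj z x}
  psol : ∀ c ∈ A, c ≠ 1 → IsPSolvable p ↥(CC c)
  kap : Kap p A
  num : Num p A z

/-- the proportion of the trivial character in `χ` restricted to `A` -/
noncomputable def ww (A : Subgroup G) (χ : G → ℂ) : ℝ :=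
  (∑ᶠ c : ↥A, (χ (c : G)).re) / ((Nat.card A : ℝ) * (χ 1).re)

theorem AA_le (P : Subgroup G) (z : G) : AA P z ≤ P :=
  (Subgroup.closure_le _).2 fun _ hx => hx.1

theorem mem_AA {P : Subgroup G} {z x : G} (hx : x ∈ P) (h : IsConj z x) : x ∈ AA P z :=
  Subgroup.subset_closure ⟨hx, h⟩

theorem AA_gen (P : Subgroup G) (z : G) :
    AA P z ≤ Subgroup.closure {x | x ∈ AA P z ∧ IsConj z x} :=
  Subgroup.closure_mono fun _ hx => ⟨mem_AA hx.1 hx.2, hx.2⟩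

end defs

/-- KIT: (1) a `p'`-subgroup of a `p`-solvable `H` normalized by a Sylow subgroup `S ≤ H` of `G` lies
in `O_{p'}(H)`; (2) balance. -/
def KitStmt : Prop :=
  ∀ (p : ℕ) [Fact p.Prime] (G : Type u) [Group G] [Finite G] (H : Subgroup G), IsPSolvable p ↥H →
    (∀ (S : Sylow p G) (L : Subgroup G), (S : Subgroup G) ≤ H → L ≤ H → (Nat.card L).Coprime p →
      (S : Subgroup G) ≤ Subgroup.normalizer (L : Set G) → L ≤ OO p H) ∧
    (∀ (b : G) (L : Subgroup G), b ∈ H → (∃ k, orderOf b = p ^ k) → L ≤ H ⊓ CC b →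
      (Nat.card L).Coprime p → H ⊓ CC b ≤ Subgroup.normalizer (L : Set G) → L ≤ OO p H)

def L1Stmt : Prop :=
  ∀ (p : ℕ) [Fact p.Prime] (G : Type u) [Group G] [Finite G] (P : Sylow p G) (z : G),
    Hyp p G → orderOf z = p → Cen P z → Loc1 p P z

def NrmStmt : Prop :=
  ∀ (p : ℕ) [Fact p.Prime] (G : Type u) [Group G] [Finite G] (P : Sylow p G) (z : G),
    orderOf z = p → Cen P z → Loc1 p P z → Nrm p (AA P z) z

def KapStmt : Prop :=
  ∀ (p : ℕ) [Fact p.Prime] (G : Type u) [Group G] [Finite G] (P : Sylow p G) (z : G),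
    Hyp p G → orderOf z = p → Cen P z → Loc1 p P z → Nrm p (AA P z) z → Kap p (AA P z)

def NumStmt : Prop :=
  ∀ (p : ℕ) [Fact p.Prime] (G : Type u) [Group G] [Finite G] (P : Sylow p G) (z : G),
    Hyp p G → orderOf z = p → Cen P z → Loc1 p P z → Nrm p (AA P z) z → Num p (AA P z) z

def LamStmt : Prop :=
  ∀ (p : ℕ) [Fact p.Prime] (G : Type u) [Group G] [Finite G] (M : Ideal AlgInt), IsPModular p M →
    ∀ b : G, b ≠ 1 → (∃ k, orderOf b = p ^ k) → IsPSolvable p ↥(CC b) →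
      ∑ᶠ χ ∈ principalBlock M G, ‖(χ : G → ℂ) b‖ ^ 2 = (io p b : ℝ)

def PDStmt : Prop :=
  ∀ (p : ℕ) [Fact p.Prime] (G : Type u) [Group G] [Finite G] (M : Ideal AlgInt), IsPModular p M →
    ∀ (A : Subgroup G) (z : G), Loc p A z → ∀ χ ∈ principalBlock M G,
      0 ≤ (1 - ww A χ) * (1 - ((Nat.card A : ℝ) - 1) * ww A χ) ∧
      ww A χ ^ 2 - (1 - ww A χ) * (1 - ((Nat.card A : ℝ) - 1) * ww A χ) ≤
        ((χ : G → ℂ) z).re / ((χ : G → ℂ) 1).re

def IDStmt : Prop :=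
  ∀ (p : ℕ) [Fact p.Prime] (G : Type u) [Group G] [Finite G] (M : Ideal AlgInt), IsPModular p M →
    ∀ (A : Subgroup G) (z : G), Loc p A z →
      (kk A z : ℝ) * (io p z : ℝ) ≤
        (Nat.card A : ℝ) * ∑ᶠ χ ∈ principalBlock M G, ‖(χ : G → ℂ) z‖ ^ 2 * ww A χ

def FinStmt : Prop :=
  ∀ (p : ℕ) [Fact p.Prime] (G : Type u) [Group G] [Finite G], IsSimpleGroup G →
    ∀ (A : Subgroup G) (z : G), Loc p A z → 2 ≤ kk A z → False

def OneStmt : Prop :=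
  ∀ (p : ℕ) [Fact p.Prime] (G : Type u) [Group G] [Finite G], IsSimpleGroup G →
    (∃ a b : G, a * b ≠ b * a) → p ≠ 2 →
    ∀ (A : Subgroup G) (z : G), Loc p A z → (∀ x ∈ A, IsConj z x → x = z) → False

end Cfsg.Agent.H63.PS
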