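import Cfsg.Agent.H63.PSDefs
import Cfsg.Agent.H55.Cores
import Cfsg.Agent.H51.PSeries
import Cfsg.Agent.H53.PSolv

/-! S3019: the kit. -/

set_option autoImplicit false
open Cfsg Subgroup

namespace Cfsg.Agent.H63.PS

universe u

theorem kit : KitStmt.{u} := by
  intro p hp G _ _ H hH
  have hc := H51.isPConstrained_of_isPSolvable hH
  refine ⟨fun S L hSH hLH hL hSL => ?_, fun b L hb hbp hLH hL hn => ?_⟩
  · have hL' : ¬ p ∣ Nat.card L := hp.out.coprime_iff_not_dvd.mp hL.symm
    have hS := H8.isSylowIn_of_le S hSH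
    refine H55.le_Opp_of_commutator_le hc hLH hL' ?_
    rw [H55.Opq_eq_sup (H55.IsSylowIn.inf_Opq hS), commutator_comm]
    refine H55.commutator_sup_le ((sup_le (H52.Opp_le H) (inf_le_left.trans hSH)).trans
      (H52.le_normalizer_Opp H)) (H55.commutator_le_left' (hLH.trans
        (H52.le_normalizer_Opp H))) ?_
    refine H55.le_Opp_of_le_Opq (fun h => hL' (h.trans (card_dvd_of_le
      (H55.commutator_le_right' (inf_le_left.trans hSL))))) ?_
    exact (commutator_mono inf_le_right le_rfl).trans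
      (H55.commutator_le_left' (hLH.trans (H55.le_normalizer_Opq p H)))
  · obtain ⟨k, hk⟩ := hbp
    have hz : IsPGroup p (zpowers b) := IsPGroup.of_card (by rw [Nat.card_zpowers, hk])
    have h1 := H55.Opp_inf_centralizer hc hz (zpowers_le.mpr hb)
    rw [H52.centralizer_zpowers] at h1
    have h2 : L ≤ H52.Opp p (H ⊓ CC b) := H3.le_map_pPrimeCore hL hLH hn
    exact (h2.trans h1.le).trans inf_le_left

variable {p : ℕ} [hp : Fact p.Prime] {G : Type u} [Group G] [Finite G]

theorem OO_coprime (H : Subgroup G) : (Nat.card (OO p H)).Coprime p :=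
  (hp.out.coprime_iff_not_dvd.mpr (H55.Opp_not_dvd p H)).symm

omit hp [Finite G] in
theorem OO_le (H : Subgroup G) : OO p H ≤ H := map_subtype_le _

omit hp [Finite G] in
theorem le_norm_OO (H : Subgroup G) : H ≤ normalizer (OO p H : Set G) := H52.le_normalizer_Opp H

/-- `O(N(A))` centralizes the `p`-group `A` -/
theorem oM_comm {A : Subgroup G} (hA : IsPGroup p A) {o a : G}
    (ho : o ∈ OO p (normalizer (A : Set G))) (ha : a ∈ A) : o * a = a * o := by
  have h := H55.commutator_eq_bot_of_not_dvd hA (H55.Opp_not_dvd p (normalizer (A : Set G)))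
    (le_normalizer.trans (le_norm_OO _)) (OO_le _)
  have := (commutator_eq_bot_iff_le_centralizer.mp h) ha
  exact (mem_centralizer_iff.mp this o ho)

/-- `O(N(A)) ≤ O(C(c))` for `c ∈ A` -/
theorem oM_le {A : Subgroup G} {z c : G} (hA : IsPGroup p A)
    (hcomm : ∀ a ∈ A, ∀ b ∈ A, a * b = b * a) (hN : Nrm p A z) (hc : c ∈ A)
    (hs : IsPSolvable p ↥(CC c)) : OO p (normalizer (A : Set G)) ≤ OO p (CC c) := by
  have hAC : A ≤ CC c := fun a ha => mem_centralizer_singleton_iff.mpr (hcomm a ha c hc)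
  have hM : OO p (normalizer (A : Set G)) ≤ CC c := fun o ho =>
    mem_centralizer_singleton_iff.mpr (oM_comm hA ho hc)
  have hno : OO p (normalizer (A : Set G)) ≤ normalizer (OO p (CC c) : Set G) :=
    hM.trans (le_norm_OO _)
  refine le_sup_left.trans (H3.le_map_pPrimeCore
    (Q := OO p (normalizer (A : Set G)) ⊔ OO p (CC c))
    (H3.coprime_card_sup_of_le_normalizer hno (OO_coprime _) (OO_coprime _))
    (sup_le hM (OO_le _)) fun h hh => ?_)
  obtain ⟨o, ho, hm⟩ := (hN _ hs hAC).2 h hh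
  have e : h = o * (o⁻¹ * h) := by group
  rw [e]
  refine mul_mem (le_normalizer (mem_sup_right ho)) ?_
  have h1 := le_norm_OO (p := p) _ hm
  have h2 := le_norm_OO (p := p) _ (mul_mem (inv_mem (OO_le _ ho)) hh)
  rw [H8.mem_normalizer_iff_conj_smul_eq] at h1 h2 ⊢
  rw [Subgroup.smul_sup, h1, h2]

omit hp [Finite G] in
/-- in the minimal counterexample the centre is trivial -/
theorem cc_ne_top (hs : IsSimpleGroup G) (hn : ∃ a b : G, a * b ≠ b * a) {c : G} (hc : c ≠ 1) :
    CC c ≠ ⊤ := by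
  intro h
  have hcen : c ∈ center G := by
    rw [mem_center_iff]
    intro g
    have : g ∈ CC c := h ▸ mem_top g
    exact mem_centralizer_singleton_iff.mp this
  rcases hs.eq_bot_or_eq_top_of_normal (center G) inferInstance with h1 | h1
  · exact hc (by rwa [h1, mem_bot] at hcen)
  · obtain ⟨a, b, hab⟩ := hn
    have : b ∈ center G := h1 ▸ mem_top b
    exact hab (mem_center_iff.mp this a)

omit hp [Finite G] in
/-- the normalizer of a nontrivial abelian subgroup is proper -/
theorem norm_ne_top (hs : IsSimpleGroup G) (hn : ∃ a b : G, a * b ≠ b * a) {A : Subgroup G} {z : G}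
    (hz : z ∈ A) (hz1 : z ≠ 1) (hcomm : ∀ a ∈ A, ∀ b ∈ A, a * b = b * a) :
    normalizer (A : Set G) ≠ ⊤ := by
  intro h
  rcases hs.eq_bot_or_eq_top_of_normal A (normalizer_eq_top_iff.mp h) with h1 | h1
  · exact hz1 (by rwa [h1, mem_bot] at hz)
  · obtain ⟨a, b, hab⟩ := hn
    exact hab (hcomm a (h1 ▸ mem_top a) b (h1 ▸ mem_top b))

end Cfsg.Agent.H63.PS
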