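import Cfsg.Agent.H63.PSKit
import Cfsg.Agent.H99.ResSeries
import Cfsg.Agent.H24.PSolv
import Cfsg.Agent.S0215

/-! S3019: assembly and reduction. -/

set_option autoImplicit false
open Cfsg Subgroup

namespace Cfsg.Agent.H63.PS

universe u

structure Pieces : Prop where
  l1 : L1Stmt.{u}
  nrm : NrmStmt.{u}
  kap : KapStmt.{u}
  num : NumStmt.{u}
  fin : FinStmt.{u}
  one : OneStmt.{u}

variable {p : ℕ} [hp : Fact p.Prime]

theorem exists_cen {G : Type u} [Group G] [Finite G] (h : p ∣ Nat.card G) (P : Sylow p G) :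
    ∃ z : G, orderOf z = p ∧ Cen P z := by
  have hP : (P : Subgroup G) ≠ ⊥ := P.ne_bot_of_dvd_card h
  haveI : Nontrivial P := (nontrivial_iff_ne_bot _).mpr hP
  haveI := P.isPGroup'.center_nontrivial
  have hZ : IsPGroup p (center P) := P.isPGroup'.to_subgroup _
  obtain ⟨n, hn0, hn⟩ := hZ.nontrivial_iff_card.mp inferInstance
  obtain ⟨z, hz⟩ := exists_prime_orderOf_dvd_card' (G := center P) p
    (hn ▸ dvd_pow_self p hn0.ne')
  refine ⟨((z : P) : G), by rw [orderOf_coe, orderOf_coe, hz], (z : P).2, fun y hy => ?_⟩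
  have := mem_center_iff.mp z.2 ⟨y, hy⟩
  exact (congrArg Subtype.val this).symm

theorem core (Q : Pieces.{u}) {G : Type u} [Group G] [Finite G] (h : Hyp p G)
    (hd : p ∣ Nat.card G) : False := by
  obtain ⟨P⟩ : Nonempty (Sylow p G) := inferInstance
  obtain ⟨z, hz, hc⟩ := exists_cen hd P
  have hz1 : z ≠ 1 := fun e => hp.out.one_lt.ne' (by rw [← hz, e, orderOf_one])
  have l1 := Q.l1 p G P z h hz hc
  have hN := Q.nrm p G P z hz hc l1
  have loc : Loc p (AA P z) z :=
    { pg := P.isPGroup'.to_le (AA_le _ _)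
      comm := l1.comm
      mem := mem_AA hc.1 (IsConj.refl z)
      ord := hz
      gen := AA_gen _ _
      psol := fun c _ hc1 => h.proper _ (cc_ne_top h.simple h.ncomm hc1)
      kap := Q.kap p G P z h hz hc l1 hN
      num := Q.num p G P z h hz hc l1 hN }
  by_cases hk : ∀ x ∈ AA P z, IsConj z x → x = z
  · by_cases h2 : p = 2
    · subst h2
      obtain ⟨N, hNn, hNo, hNc⟩ := S0215.result P z hz hc.1 fun g hg =>
        hk _ (mem_AA hg (isConj_iff.mpr ⟨g, rfl⟩)) (isConj_iff.mpr ⟨g, rfl⟩)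
      rcases h.simple.eq_bot_or_eq_top_of_normal N hNn with h1 | h1
      · refine cc_ne_top h.simple h.ncomm hz1 (eq_top_iff.mpr fun g _ => ?_)
        have := hNc g
        rw [h1, mem_bot] at this
        rw [mem_centralizer_singleton_iff]
        calc g * z = (z * g * z⁻¹ * g⁻¹) * (g * z) := by rw [this, one_mul]
          _ = z * g := by group
      · rw [h1, card_top] at hNo
        exact (Nat.not_even_iff_odd.mpr hNo) (even_iff_two_dvd.mpr hd)
    · exact Q.one p G h.simple h.ncomm h2 _ z loc hk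
  · push Not at hk
    obtain ⟨x, hx, hzx, hne⟩ := hk
    refine Q.fin p G h.simple _ z loc ?_
    have : Nontrivial {x : G // x ∈ AA P z ∧ IsConj z x} :=
      ⟨⟨⟨x, hx, hzx⟩, ⟨z, loc.mem, IsConj.refl z⟩, fun e => hne (congrArg Subtype.val e)⟩⟩
    exact Finite.one_lt_card

/-- the hypothesis -/
def Pr (p : ℕ) [Fact p.Prime] (G : Type u) [Group G] : Prop :=
  ∀ S₁ S₂ : Sylow p G, IsPSolvable p ↥((S₁ : Subgroup G) ⊔ (S₂ : Subgroup G))

theorem Pr.sub {G : Type u} [Group G] [Finite G] (h : Pr p G) (H : Subgroup G) : Pr p ↥H := by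
  intro T₁ T₂
  obtain ⟨S₁, h1⟩ := (T₁.isPGroup'.map H.subtype).exists_le_sylow
  obtain ⟨S₂, h2⟩ := (T₂.isPGroup'.map H.subtype).exists_le_sylow
  have h3 := H53.isPSolvable_of_le (sup_le_sup h1 h2) (h S₁ S₂)
  rw [← Subgroup.map_sup] at h3
  exact H53.isPSolvable_comap (equivMapOfInjective _ _ H.subtype_injective).toMonoidHom
    (MulEquiv.injective _) h3

theorem Pr.quot {G : Type u} [Group G] [Finite G] (h : Pr p G) (N : Subgroup G) [N.Normal] :
    Pr p (G ⧸ N) := by
  intro T₁ T₂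
  obtain ⟨S₁, rfl⟩ := Sylow.mapSurjective_surjective (QuotientGroup.mk'_surjective N) p T₁
  obtain ⟨S₂, rfl⟩ := Sylow.mapSurjective_surjective (QuotientGroup.mk'_surjective N) p T₂
  rw [Sylow.coe_mapSurjective, Sylow.coe_mapSurjective, ← Subgroup.map_sup]
  exact H53.isPSolvable_map _ (h S₁ S₂)

theorem main (Q : Pieces.{u}) (n : ℕ) : ∀ (G : Type u) [Group G] [Finite G], Nat.card G = n →
    Pr p G → IsPSolvable p G := by
  induction n using Nat.strong_induction_on with
  | _ n ih =>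
  intro G _ _ hn h
  have hsub : ∀ H : Subgroup G, H ≠ ⊤ → IsPSolvable p ↥H := fun H hH =>
    ih _ (hn ▸ (Nat.lt_of_le_of_ne (card_le_card_group H) fun e => hH (eq_top_of_card_eq H e)))
      H rfl (h.sub H)
  by_cases hd : p ∣ Nat.card G
  swap
  · exact H99.isPSolvable_of_coprime (hp.out.coprime_iff_not_dvd.mpr hd).symm
  by_cases hN : ∃ N : Subgroup G, N.Normal ∧ N ≠ ⊥ ∧ N ≠ ⊤
  · obtain ⟨N, hNn, h1, h2⟩ := hN
    refine H99.isPSolvable_of_normal G N (hsub N h2) (ih _ ?_ _ rfl (h.quot N))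
    rw [← hn, ← card_mul_index N, ← index_eq_card]
    have h3 : 1 < Nat.card N := one_lt_card_iff_ne_bot N |>.mpr h1
    have h4 : 0 < N.index := Nat.pos_of_ne_zero index_ne_zero_of_finite
    nlinarith
  haveI : Nontrivial G := by
    rw [← Finite.one_lt_card_iff_nontrivial]
    exact lt_of_lt_of_le hp.out.one_lt (Nat.le_of_dvd Nat.card_pos hd)
  have hs : IsSimpleGroup G := ⟨fun N hNn => by
    by_contra hc
    push Not at hc
    exact hN ⟨N, hNn, hc.1, hc.2⟩⟩
  by_cases hc : ∃ a b : G, a * b ≠ b * a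
  · exact (core Q ⟨hs, hc, hsub, h⟩ hd).elim
  · push Not at hc
    exact H24.isPSolvable_of_isSolvable hp.out G (Group.isSolvable_of_comm hc)

theorem s3019 (Q : Pieces.{u}) {G : Type u} [Group G] [Finite G] (P : Sylow p G) :
    IsPSolvable p G ↔ ∀ g : G, IsPSolvable p
      ↥((P : Subgroup G) ⊔ (P : Subgroup G).map (MulAut.conj g).toMonoidHom) := by
  refine ⟨fun h g => H53.isPSolvable_subgroup h _, fun h => main Q _ G rfl fun S₁ S₂ => ?_⟩
  obtain ⟨a, ha⟩ := MulAction.exists_smul_eq G P S₁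
  obtain ⟨b, hb⟩ := MulAction.exists_smul_eq G P S₂
  have h1 := H53.isPSolvable_map (MulAut.conj a).toMonoidHom (h (a⁻¹ * b))
  rw [Subgroup.map_sup, Subgroup.map_map] at h1
  have e1 : (P : Subgroup G).map (MulAut.conj a).toMonoidHom = S₁ := by rw [← ha]; rfl
  have e2 : (P : Subgroup G).map ((MulAut.conj a).toMonoidHom.comp
      (MulAut.conj (a⁻¹ * b)).toMonoidHom) = S₂ := by
    rw [← hb]
    have : (MulAut.conj a).toMonoidHom.comp (MulAut.conj (a⁻¹ * b)).toMonoidHom =
        (MulAut.conj b).toMonoidHom := by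
      ext x; simp [mul_assoc]
    rw [this]; rfl
  rwa [e1, e2] at h1

end Cfsg.Agent.H63.PS
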