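import Cfsg.Agent.H41.PcKey
import Cfsg.Agent.H79.PcQuot
import Cfsg.Agent.H49.PcOrd
import Cfsg.Agent.H47.PcSoc
import Cfsg.Agent.H29.PcMain
import Cfsg.Agent.H62.PcTop
import Cfsg.Agent.H65.PcCnt
import Cfsg.Agent.H80.PcUni
import Cfsg.Agent.H30.PcOrb
import Cfsg.Agent.H76.PcSyl
import Cfsg.Agent.H10.PcNf
import Cfsg.Agent.H9.PcNc
import Cfsg.Agent.H89.PcTr
import Cfsg.Agent.H88.PcGl
import Cfsg.Agent.H38.PcLoc
import Cfsg.Agent.H71.PcQo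
import Cfsg.Agent.H44.PcFin
import Cfsg.Agent.H52.PcFin0
import Cfsg.Agent.H54.PcB
import Cfsg.Agent.H19.PcA0
import Cfsg.Agent.H51.PcA
import Cfsg.Agent.H48.PcBb
import Cfsg.Agent.H66.PcN1
import Cfsg.Agent.H20.PcU
import Cfsg.Agent.H68.PcC2
import Cfsg.Agent.H39.PcTrans
import Cfsg.Agent.H6.PcPick
import Cfsg.Agent.H33.PcFix
import Cfsg.Agent.H60.PcCv1
import Cfsg.Agent.H23.PcCv2
import Cfsg.Agent.H7.PcCent
import Cfsg.Agent.H83.PcW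
import Cfsg.Agent.H37.PcQ2
import Cfsg.Agent.H12.PcE1
import Cfsg.Agent.H21.PcE2

set_option autoImplicit false

namespace Cfsg.Agent.H63.PcAsm

open Cfsg.Agent Cfsg.Agent.H42.Pc

universe u

theorem topAll : TopStmt.{u} :=
  have key : KeyStmt.{u} := H41.PcKey.key
  have ab : AbStmt.{u} := H68.PcC2.ab
  have trans : TransStmt.{u} := H39.PcTrans.trans ab
  have a : AStmt.{u} := H51.PcA.a H19.PcA0.a0
  have c2 : C2Stmt.{u} := H68.PcC2.c2 a H54.PcB.b (H66.PcN1.n1 a H48.PcBb.bb) H20.PcU.uu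
  have cent : CentStmt.{u} := H7.PcCent.cent ab H6.PcPick.pick (H33.PcFix.fix ab)
    (H60.PcCv1.cv1 ab trans) (H23.PcCv2.cv2 ab trans)
  have endd : EndStmt.{u} := H21.PcE2.endd cent (H12.PcE1.e1 ab)
  have fin : FinStmt.{u} := H44.PcFin.fin ab c2 H6.PcPick.pick H83.PcW.ww H37.PcQ2.q2 endd
  have fin0 : Fin0Stmt.{u} := H52.PcFin0.fin0 H71.PcQo.qo fin
  have nf : NfStmt.{u} := H10.PcNf.nf H65.PcCnt.cnt H80.PcUni.odd H80.PcUni.uni H30.PcOrb.orb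
    H76.PcSyl.syl
  have nc : NcStmt.{u} := H9.PcNc.nc H76.PcSyl.syl nf
  have loc : LocStmt.{u} := H38.PcLoc.loc (H49.PcOrd.ord key) nc H89.PcTr.tr
  H62.PcTop.top (H79.PcQuot.quot key) H47.PcSoc.soc (H29.PcMain.main H88.PcGl.gl loc fin0)

end Cfsg.Agent.H63.PcAsm
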